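import Cfsg.Agent.Fgs1.PClasses
import Cfsg.Agent.Ab2.App1
import Cfsg.Agent.JR.Pk0
import Cfsg.Agent.GW.Quat
import Cfsg.Agent.SolvStr.Cls2

/-! Groups in which the number of classes of 2-elements is half the order of a Sylow 2-subgroup. -/

set_option autoImplicit false

namespace CF.K2h

open Subgroup Cfsg CF.BG CF.Sig CF.GW CF.Ab2

section
variable {α β : Type*} [DecidableEq β] (s : Finset α) (g : α → β)

theorem sum_inv_fiber :
    ∑ a ∈ s, (1 / (s.filter fun b => g b = g a).card : ℚ) = (s.image g).card := by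
  rw [Finset.sum_comp (fun y => (1 / (s.filter fun b => g b = y).card : ℚ)) g, Finset.card_eq_sum_ones,
    Nat.cast_sum]
  refine Finset.sum_congr rfl fun y hy => ?_
  obtain ⟨a, ha, rfl⟩ := Finset.mem_image.1 hy
  have : (s.filter fun b => g b = g a).card ≠ 0 :=
    Finset.card_ne_zero.2 ⟨a, Finset.mem_filter.2 ⟨ha, rfl⟩⟩
  rw [nsmul_eq_mul, mul_one_div_cancel (by exact_mod_cast this), Nat.cast_one]

theorem count (h : 2 * (s.image g).card = s.card) (n : α → ℕ)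
    (hn : ∀ a ∈ s, n a = (s.filter fun b => g b = g a).card) :
    (s.filter fun a => 3 ≤ n a).card ≤ 3 * (s.filter fun a => n a = 1).card ∧
    ((s.filter fun a => 3 ≤ n a).card = 3 * (s.filter fun a => n a = 1).card →
      ∀ a ∈ s, 3 ≤ n a → n a = 3) ∧
    ((∃ a ∈ s, n a = 1) → ∃ a ∈ s, 3 ≤ n a) := by
  have p : ∀ a ∈ s, 1 ≤ n a := fun a ha => by
    rw [hn a ha]; exact Finset.card_pos.2 ⟨a, Finset.mem_filter.2 ⟨ha, rfl⟩⟩
  have e : ∑ a ∈ s, (2 * (1 / n a : ℚ) - 1) = 0 := by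
    rw [Finset.sum_sub_distrib, ← Finset.mul_sum, Finset.sum_congr rfl fun a ha => by rw [hn a ha],
      sum_inv_fiber]
    simp only [Finset.sum_const, nsmul_eq_mul, mul_one]
    rw [← h]; push_cast; ring
  have le : ∀ a ∈ s, (2 * (1 / n a : ℚ) - 1) ≤
      (if n a = 1 then 1 else 0) - (if 3 ≤ n a then 1 else 0) / 3 := fun a ha => by
    have := p a ha
    rcases (by omega : n a = 1 ∨ n a = 2 ∨ 3 ≤ n a) with k | k | k
    · rw [k]; norm_num
    · rw [k]; norm_num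
    · rw [if_neg (by omega), if_pos k]
      have : (1 / n a : ℚ) ≤ 1 / 3 := one_div_le_one_div_of_le (by norm_num) (by exact_mod_cast k)
      linarith
  have e2 : ∑ a ∈ s, ((if n a = 1 then 1 else 0) - (if 3 ≤ n a then 1 else 0) / 3 : ℚ) =
      (s.filter fun a => n a = 1).card - (s.filter fun a => 3 ≤ n a).card / 3 := by
    rw [Finset.sum_sub_distrib, ← Finset.sum_div, Finset.sum_boole, Finset.sum_boole]
  have l := Finset.sum_le_sum le
  refine ⟨?_, fun k a ha k3 => ?_, fun ⟨a, ha, k⟩ => ?_⟩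
  · rw [e, e2] at l
    have : ((s.filter fun a => 3 ≤ n a).card : ℚ) ≤ 3 * (s.filter fun a => n a = 1).card := by linarith
    exact_mod_cast this
  · have := (Finset.sum_eq_sum_iff_of_le le).1 (by rw [e, e2, k]; push_cast; ring) a ha
    rw [if_neg (by omega), if_pos k3] at this
    have h0 : (n a : ℚ) ≠ 0 := by have := p a ha; positivity
    have : (n a : ℚ) = 3 := by field_simp at this; linarith
    exact_mod_cast this
  · by_contra! k3
    have : ∑ a ∈ s, (0 : ℚ) < ∑ a ∈ s, (2 * (1 / n a : ℚ) - 1) := by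
      refine Finset.sum_lt_sum (fun b hb => ?_) ⟨a, ha, by rw [k]; norm_num⟩
      have := p b hb
      have := k3 b hb
      rcases (by omega : n b = 1 ∨ n b = 2) with j | j <;> rw [j] <;> norm_num
    rw [e, Finset.sum_const_zero] at this
    exact lt_irrefl _ this

end

variable {G : Type*} [Group G] [Finite G] {S P Q M K : Subgroup G} {c g x y z t u : G}

/-- the conjugates of `x` in `P` -/
def Fc (P : Subgroup G) (x : G) : Set G := {y | y ∈ P ∧ IsConj x y}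

/-- the elements of `P` with at least three conjugates in `P` -/
def Bs (P : Subgroup G) : Set G := {x | x ∈ P ∧ 3 ≤ (Fc P x).ncard}

omit [Finite G] in
theorem Fc_eq (h : IsConj x y) : Fc P x = Fc P y :=
  Set.ext fun _ => and_congr_right fun _ => ⟨h.symm.trans, h.trans⟩

omit [Finite G] in
theorem conj_mem_Fc (h : g * x * g⁻¹ ∈ P) : g * x * g⁻¹ ∈ Fc P x := ⟨h, isConj_iff.2 ⟨g, rfl⟩⟩

omit [Finite G] in
theorem mem_of_sq {H : Subgroup G} (o : Odd (orderOf g)) (h : g * g ∈ H) : g ∈ H := by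
  obtain ⟨k, e⟩ := o
  have : g = (g * g) ^ (k + 1) := by
    rw [← pow_two, ← pow_mul, show 2 * (k + 1) = orderOf g + 1 by omega, pow_succ, pow_orderOf_eq_one,
      one_mul]
  rw [this]; exact pow_mem h _

/-- an element moved by the square of an element normalizing `K ≤ P` has three conjugates -/
theorem mem_Bs (l : K ≤ P) (n : g ∈ 𝐍 K) (hx : x ∈ K) (h : g * g ∉ 𝐂₁ x) : x ∈ Bs P := by
  have h1 := conj_mem_of_norm n hx
  have h2 := conj_mem_of_norm n h1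
  have n1 : g * x * g⁻¹ ≠ x := fun e => h (mul_mem (mem_cent1.2 (mul_inv_eq_iff_eq_mul.1 e))
    (mem_cent1.2 (mul_inv_eq_iff_eq_mul.1 e)))
  have n2 : g * (g * x * g⁻¹) * g⁻¹ ≠ x := fun e => h (mem_cent1.2 (by
    conv_rhs => rw [← e]
    group))
  have n3 : g * (g * x * g⁻¹) * g⁻¹ ≠ g * x * g⁻¹ := fun e => n1 (by simpa using e)
  refine ⟨l hx, ?_⟩
  rw [← Set.ncard_eq_three.2 ⟨_, _, _, n1.symm, n2.symm, n3.symm, rfl⟩]
  refine Set.ncard_le_ncard ?_
  rintro _ (rfl | rfl | rfl)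
  exacts [⟨l hx, .refl _⟩, conj_mem_Fc (l h1), Fc_eq (isConj_iff.2 ⟨g, rfl⟩) ▸ conj_mem_Fc (l h2)]

omit [Finite G] in
theorem eq_one_of_odd (o : Odd (orderOf g)) (e : E2 c) (hc : g * c = c * g)
    (h : g * x * g⁻¹ = x * c) : c = 1 := by
  have k : ∀ n : ℕ, g ^ n * x * (g ^ n)⁻¹ = x * c ^ n := fun n => by
    induction n with
    | zero => simp
    | succ n ih =>
      have : g * c ^ n * g⁻¹ = c ^ n := by rw [(Commute.pow_right hc n).eq, mul_inv_cancel_right]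
      calc _ = g * (g ^ n * x * (g ^ n)⁻¹) * g⁻¹ := by rw [pow_succ']; group
        _ = (g * x * g⁻¹) * (g * c ^ n * g⁻¹) := by rw [ih]; group
        _ = _ := by rw [h, this, pow_succ', mul_assoc]
  have := k (orderOf g)
  rw [pow_orderOf_eq_one, one_mul, inv_one, mul_one, left_eq_mul] at this
  refine e.eq_one ((piNat_compl_single p2).2 fun d => ?_)
  exact (Nat.not_even_iff_odd.2 o) (even_iff_two_dvd.2 (d.trans (orderOf_dvd_of_pow_eq_one this)))

/-- an odd element acting on a 2-group centralizes no subgroup of index two -/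
theorem not_hyp (o : Odd (orderOf g)) (p : P2 M) (l : K ≤ 𝐂₁ g)
    (h : g * x * g⁻¹ ≠ x) {E : Subgroup G} (hE : E ≤ M) (k : Hyp K E) (m : x ∈ E)
    (m' : g * x * g⁻¹ ∈ E) : False := by
  have x1 : x ∉ K := fun j => h (mul_inv_eq_iff_eq_mul.2 (mem_cent1.1 (l j)).symm)
  have x2 : g * x * g⁻¹ ∉ K := fun j => h (by
    have := mul_inv_eq_iff_eq_mul.2 (mem_cent1.1 (l j)).symm
    simpa using this)
  have j := k.mul_mem (inv_mem m) m' (by rwa [inv_mem_iff]) x2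
  have := eq_one_of_odd (x := x) o (p.elt (hE (k.le j))) (mem_cent1.1 (l j)).symm
    (mul_inv_cancel_left x _).symm
  exact h (inv_mul_eq_one.1 this).symm

structure HK (S : Subgroup G) : Prop where
  syl : Syl 2 S ⊤
  le : center G ≤ S
  bnd : (Bs S).ncard ≤ 3 * ♯(center G)
  three : (Bs S).ncard = 3 * ♯(center G) → ∀ x ∈ Bs S, (Fc S x).ncard = 3
  ne : (Bs S).Nonempty

theorem pi_center (h0 : 𝐎 {2}ᶜ (⊤ : Subgroup G) = ⊥) : P2 (center G) := by
  have a : Abel (center G) := fun x hx y _ => (mem_center_iff.1 hx y)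
  have d := (a.nil.dprod {2}).sup
  rw [BG.eq_bot_mono h0 (O_le_O_of_normal (normalIn_top.2 inferInstance) _), sup_bot_eq] at d
  exact d ▸ O_pi _ _

theorem hk (S : Sylow 2 G) (hO : pPrimeCore 2 G = ⊥)
    (hk : 2 * Fgs1.kp 2 G = Nat.card (S : Subgroup G)) : HK (S : Subgroup G) := by
  classical
  have := Fintype.ofFinite G
  have s := syl_sylow_top S
  have l := s.le_of_normal (normalIn_top.2 inferInstance) (pi_center ((pPrimeCore_eq p2).symm.trans hO))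
  have one : ∀ x ∈ (S : Subgroup G), (Fc S x).ncard = 1 ↔ x ∈ center G := fun x hx => by
    refine ⟨fun e => (Char.inZStar_iff_mem_center hO).1 (Char.inZStar_of_weaklyClosed S hx
      fun g hg => ?_), fun e => ?_⟩
    · obtain ⟨a, ha⟩ := Set.ncard_eq_one.1 e
      exact (ha.le (conj_mem_Fc hg)).trans (ha.le (show x ∈ Fc S x from ⟨hx, .refl _⟩)).symm
    · refine Set.ncard_eq_one.2 ⟨x, Set.ext fun y => ⟨fun ⟨_, k⟩ => ?_, fun k => by
        rw [k]; exact ⟨hx, .refl _⟩⟩⟩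
      obtain ⟨g, rfl⟩ := isConj_iff.1 k
      rw [mem_center_iff.1 e g, mul_inv_cancel_right]; rfl
  obtain ⟨h1, h2, h3⟩ := count ((S : Subgroup G) : Set G).toFinset ConjClasses.mk (by
    rw [← Set.ncard_coe_finset, ← Set.ncard_coe_finset, Finset.coe_image, Set.coe_toFinset,
      ← Fgs1.kp_eq_ncard, hk, Fgs1.ncard_coe_subgroup]) (fun x => (Fc S x).ncard) fun a _ => by
    rw [← Set.ncard_coe_finset]
    congr 1
    ext y
    simp only [Fc, Set.mem_ofPred_eq, Finset.coe_filter, Set.mem_toFinset, SetLike.mem_coe,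
      ConjClasses.mk_eq_mk_iff_isConj, isConj_comm]
  have eB : (((S : Subgroup G) : Set G).toFinset.filter fun a => 3 ≤ (Fc S a).ncard).card =
      (Bs (S : Subgroup G)).ncard := by
    rw [← Set.ncard_coe_finset]
    congr 1
    ext y
    simp only [Bs, Finset.coe_filter, Set.mem_toFinset, SetLike.mem_coe]
  have eA : (((S : Subgroup G) : Set G).toFinset.filter fun a => (Fc S a).ncard = 1).card =
      ♯(center G) := by
    rw [← Set.ncard_coe_finset, ← Fgs1.ncard_coe_subgroup]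
    congr 1
    ext y
    simp only [Finset.coe_filter, Set.mem_toFinset, SetLike.mem_coe, Set.mem_ofPred_eq]
    exact ⟨fun k => (one y k.1).1 k.2, fun k => ⟨l k, (one y (l k)).2 k⟩⟩
  rw [eA, eB] at h1 h2
  refine ⟨s, l, h1, fun e x hx => h2 e x (Set.mem_toFinset.2 hx.1) hx.2, ?_⟩
  obtain ⟨a, ha, k⟩ := h3 ⟨1, Set.mem_toFinset.2 (one_mem _), (one 1 (one_mem _)).2 (one_mem _)⟩
  exact ⟨a, Set.mem_toFinset.1 ha, k⟩

omit [Finite G] in
theorem ncard_Fc_top (x : G) : (Fc ⊤ x).ncard = (𝐂₁ x).index := by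
  rw [← Classical.ncard_conj_eq_index]
  congr 1
  ext y
  simp [Fc, isConj_iff]

theorem HK.ne_top (h : HK S) : S ≠ ⊤ := by
  rintro rfl
  have p := h.syl.pi
  have pw : ∀ x : G, ∃ k, (𝐂₁ x).index = 2 ^ k := fun x =>
    PiNat.exists_pow (relIndex_top_right (𝐂₁ x) ▸ p.relIndex _) index_ne_zero_of_finite
  obtain ⟨x, hx⟩ := h.ne
  have four : ∀ x ∈ Bs (⊤ : Subgroup G), 4 ≤ (𝐂₁ x).index := fun x hx => by
    obtain ⟨k, e⟩ := pw x
    have := hx.2
    rw [ncard_Fc_top, e] at this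
    rw [e]
    rcases k with _ | _ | k
    · omega
    · omega
    · rw [pow_succ, pow_succ]; have := Nat.pos_of_ne_zero (pow_ne_zero k two_ne_zero); omega
  have lt : (Bs (⊤ : Subgroup G)).ncard < 3 * ♯(center G) := h.bnd.lt_of_ne fun e => by
    have := h.three e x hx
    rw [ncard_Fc_top] at this
    have := four x hx
    omega
  have x4 := four x hx
  have sub : (Set.univ : Set G) ⊆ Bs ⊤ ∪ (fun u => x * u) ⁻¹' Bs ⊤ ∪ (𝐂₁ x : Set G) := fun u _ => by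
    by_contra k
    simp only [Set.mem_union, Set.mem_preimage, not_or, Bs, Set.mem_ofPred_eq, mem_top, true_and,
      ncard_Fc_top, not_le] at k
    have l : 𝐂₁ u ⊓ 𝐂₁ (x * u) ≤ 𝐂₁ x := fun g hg => mem_cent1.2 (by
      have h1 := mem_cent1.1 hg.1
      have h2 := mem_cent1.1 hg.2
      apply mul_right_cancel (b := u)
      rw [mul_assoc, h2, mul_assoc, mul_assoc, h1])
    have i := index_inf_le (H := 𝐂₁ u) (K := 𝐂₁ (x * u))
    have i2 : (𝐂₁ u).index * (𝐂₁ (x * u)).index ≤ 2 * 2 := Nat.mul_le_mul (by omega) (by omega)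
    have e : 𝐂₁ u ⊓ 𝐂₁ (x * u) = 𝐂₁ x := eq_of_card_le l (by
      have c1 := (𝐂₁ u ⊓ 𝐂₁ (x * u)).card_mul_index
      have c2 := (𝐂₁ x).card_mul_index
      have : ♯(𝐂₁ x) * 4 ≤ ♯(𝐂₁ u ⊓ 𝐂₁ (x * u) : Subgroup G) * 4 :=
        (Nat.mul_le_mul_left _ x4).trans (c2.trans c1.symm ▸ Nat.mul_le_mul_left _ (i.trans i2))
      omega)
    exact k.2 (mem_cent1.2 (mem_cent1.1 (e.ge (mem_cent1.2 rfl)).1).symm)
  have c := (Set.ncard_le_ncard sub).trans ((Set.ncard_union_le _ _).trans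
    (Nat.add_le_add_right (Set.ncard_union_le _ _) _))
  rw [Set.ncard_univ, Set.ncard_preimage_of_injective_subset_range (mul_right_injective x)
    (by rw [(mul_left_surjective x).range_eq]; exact Set.subset_univ _), Fgs1.ncard_coe_subgroup] at c
  have c2 := (𝐂₁ x).card_mul_index
  have c3 := Nat.mul_le_mul_left (♯(𝐂₁ x)) x4
  have c4 := card_two_le (B := center G) (S := 𝐂₁ x) (p.le le_top)
    (lt_of_le_of_ne (fun z hz => mem_cent1.2 (mem_center_iff.1 hz x).symm) fun e => by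
      have : 𝐂₁ x = ⊤ := eq_top_iff.2 fun g _ =>
        mem_cent1.2 (mem_center_iff.1 (e.ge (mem_cent1.2 rfl)) g)
      rw [this, index_top] at x4; omega)
  omega

omit [Finite G] in
theorem center_le_cent1 (g : G) : center G ≤ 𝐂₁ g := fun _ hz => mem_cent1.2 (mem_center_iff.1 hz g).symm

theorem HK.exists_M (h : HK S) (l : Q ≤ S) (o : Odd (orderOf g)) (n : g ∈ 𝐍 Q) (c : g ∉ 𝐂 Q) :
    ∃ M, center G ≤ M ∧ M ≤ S ∧ ♯M = 4 * ♯(center G) ∧ g ∈ 𝐍 M ∧ M ⊓ 𝐂₁ g = center G ∧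
      Bs S = (M : Set G) \ center G ∧ ∀ x ∈ Bs S, (Fc S x).ncard = 3 := by
  have lM : Q ⊔ center G ≤ S := sup_le l h.le
  have nM : g ∈ 𝐍 (Q ⊔ center G) := norm_sup (zpowers_le.2 n)
    (le_top.trans (normalIn_top.2 inferInstance).norm) (mem_zpowers g)
  have cM : ¬ Q ⊔ center G ≤ 𝐂₁ g := fun k => c (mem_cent.2 fun x hx => mem_cent1.1 (k (mem_sup_left hx)))
  have zM : center G ≤ Q ⊔ center G := le_sup_right
  generalize Q ⊔ center G = M at lM nM cM zM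
  have p := h.syl.pi.le lM
  have zC : center G ≤ M ⊓ 𝐂₁ g := le_inf zM (center_le_cent1 g)
  obtain ⟨D, d, dl⟩ := exists_hyp_ge p (inf_lt_left.2 cM)
  obtain ⟨x, hx, xc⟩ := SetLike.not_le_iff_exists.1 cM
  have c2 := card_two_le (p.le d.le) (dl.lt_of_ne fun e => not_hyp o p inf_le_right (x := x)
    (fun k => xc (mem_cent1.2 (mul_inv_eq_iff_eq_mul.1 k).symm)) le_rfl (e ▸ d) hx
    (conj_mem_of_norm nM hx))
  have sub : (M : Set G) \ (M ⊓ 𝐂₁ g : Subgroup G) ⊆ Bs S := fun y hy =>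
    mem_Bs lM nM hy.1 fun k => hy.2 ⟨hy.1, mem_cent1.2 (mem_cent1.1 (mem_of_sq o k)).symm⟩
  have c3 := Set.ncard_sdiff_add_ncard_of_subset (SetLike.coe_subset_coe.2 (inf_le_left : M ⊓ 𝐂₁ g ≤ M))
  rw [Fgs1.ncard_coe_subgroup, Fgs1.ncard_coe_subgroup] at c3
  have c4 := Set.ncard_le_ncard sub
  have c5 := card_le zC
  have c6 := d.card
  have c7 := h.bnd
  have e := eq_of_card_le zC (by omega)
  exact ⟨M, zM, lM, by omega, nM, e.symm, e ▸ (Set.eq_of_subset_of_ncard_le sub (by omega)).symm,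
    h.three (by omega)⟩

theorem HK.core (h : HK S) (l : Q ≤ S) (o : Odd (orderOf g)) (n : g ∈ 𝐍 Q) (c : g ∉ 𝐂 Q) :
    ∃ M, center G ≤ M ∧ M ≤ S ∧ ♯M = 4 * ♯(center G) ∧ g ∈ 𝐍 M ∧
      (∀ x ∈ M, ∀ y ∈ S, IsConj x y → y ∈ M) ∧
      (∀ x ∈ M, x ∉ center G → ∀ c ∈ center G, g * x * g⁻¹ ≠ x * c) ∧
      (M = S ∨ Hyp M S ∧ ∃ s ∈ S, ∃ t ∈ M, ∀ c ∈ center G, s * t * s⁻¹ ≠ t * c) := by
  obtain ⟨M, zM, lM, cM, nM, cg, eB, h3⟩ := h.exists_M l o n c
  have p := h.syl.pi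
  have sc : ∀ x ∈ M, ∀ y ∈ S, IsConj x y → y ∈ M := fun x hx y hy k => by
    by_cases e : x ∈ center G
    · obtain ⟨a, rfl⟩ := isConj_iff.1 k
      rwa [mem_center_iff.1 e a, mul_inv_cancel_right]
    · exact (eB.le (show y ∈ Bs S from ⟨hy, Fc_eq k ▸ (eB.ge ⟨hx, e⟩).2⟩)).1
  have mv : ∀ x ∈ M, x ∉ center G → g * x * g⁻¹ ≠ x := fun x hx e k =>
    e (cg.le ⟨hx, mem_cent1.2 (mul_inv_eq_iff_eq_mul.1 k).symm⟩)
  have mv' : ∀ x ∈ M, x ∉ center G → ∀ c ∈ center G, g * x * g⁻¹ ≠ x * c := fun x hx e c hc k =>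
    mv x hx e (by rw [k, eq_one_of_odd o (p.elt (h.le hc)) (mem_center_iff.1 hc g) k, mul_one])
  have nc : ∀ a x : G, x ∉ center G → a * x * a⁻¹ ∉ center G := fun a x e k => e (by
    simpa [mul_assoc] using (inferInstance : (center G).Normal).conj_mem _ k a⁻¹)
  have nS : S ≤ 𝐍 M := le_norm_iff.2 fun s hs x hx =>
    sc x hx _ (conj_mem_of_norm (le_norm_self _ hs) (lM hx)) (isConj_iff.2 ⟨s, rfl⟩)
  refine ⟨M, zM, lM, cM, nM, sc, mv', ?_⟩
  obtain ⟨x, hx⟩ := h.ne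
  obtain ⟨z, hz, zS⟩ : ∃ z ∈ Fc S x, S ≤ 𝐂₁ z := by
    by_contra! k
    have := SolvStr.dvd_ncard_conj (K := S) (S := Fc S x) (n := 2)
      (fun a ha s hs => ⟨conj_mem_of_norm (le_norm_self _ ha) hs.1, hs.2.trans (isConj_iff.2 ⟨a, rfl⟩)⟩) fun s hs => by
      obtain ⟨j, e⟩ := (p.relIndex (𝐂₁ s)).exists_pow (relIndex_ne_zero' _ _)
      rcases j with _ | j
      · exact (k s hs (relIndex_eq_one.1 e)).elim
      · rw [e]; exact dvd_pow_self 2 (Nat.succ_ne_zero j)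
    rw [h3 x hx] at this; omega
  have zB : z ∈ Bs S := ⟨hz.1, Fc_eq hz.2 ▸ hx.2⟩
  obtain ⟨z1, z2⟩ := eB.le zB
  have t1 := conj_mem_of_norm nM z1
  have t2 := nc g z z2
  have tz := mv z z1 z2
  -- the centralizer of `M` in `S`
  have kM : S ⊓ 𝐂₁ (g * z * g⁻¹) ≤ 𝐂 M := by
    have l1 : center G ≤ M ⊓ 𝐂 (S ⊓ 𝐂₁ (g * z * g⁻¹)) :=
      le_inf zM fun a ha => mem_cent.2 fun b _ => mem_center_iff.1 ha b
    have m1 : z ∈ M ⊓ 𝐂 (S ⊓ 𝐂₁ (g * z * g⁻¹)) := ⟨z1, mem_cent.2 fun b hb => mem_cent1.1 (zS hb.1)⟩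
    have m2 : g * z * g⁻¹ ∈ M ⊓ 𝐂 (S ⊓ 𝐂₁ (g * z * g⁻¹)) :=
      ⟨t1, mem_cent.2 fun b hb => mem_cent1.1 hb.2⟩
    refine cent_symm (inf_eq_left.1 (by_contra fun e => ?_))
    have c1 := card_two_le (p.le lM) (inf_le_left.lt_of_ne e)
    have c2 := card_two_le ((p.le lM).inf_left) (l1.lt_of_ne fun k => z2 (k.ge m1))
    exact not_hyp o (p.le lM) (center_le_cent1 g) tz inf_le_left ⟨l1, by omega⟩ m1 m2
  have kM' : S ⊓ 𝐂 M ≤ M := fun u hu => by
    by_contra uM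
    have cn : 𝐂 M ⊴ 𝐍 M := ⟨centralizer_le_normalizer _, norm_le_norm_cent M⟩
    obtain ⟨a, ha, b, hb, e⟩ := ((h.syl.of_le nS le_top).inf_normal cn).syl_frattini cn nM
    have key : ∀ u ∈ S ⊓ 𝐂 M, u ∉ M → b * b ∈ 𝐂₁ u := fun u hu uM => by_contra fun k =>
      uM (eB.le (mem_Bs inf_le_left hb.2 hu k)).1
    have k1 := key u hu uM
    have k2 := key (u * z) (mul_mem hu ⟨hz.1, mem_cent.2 fun y hy => mem_cent1.1 (zS (lM hy))⟩)
      fun k => uM ((mul_mem_cancel_right z1).1 k)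
    have k3 : b * b ∈ 𝐂₁ z := mem_cent1.2 (by
      apply mul_left_cancel (a := u)
      rw [← mul_assoc, ← mem_cent1.1 k1, mul_assoc, mem_cent1.1 k2, mul_assoc])
    have act : ∀ y ∈ M, g * y * g⁻¹ = b * y * b⁻¹ := fun y hy => by
      have := mem_cent.1 ha _ (conj_mem_of_norm hb.1 hy)
      rw [← e]
      calc _ = a * (b * y * b⁻¹) * a⁻¹ := by group
        _ = _ := by rw [← this, mul_inv_cancel_right]
    refine tz (mul_inv_eq_iff_eq_mul.2 (mem_cent1.1 (mem_of_sq o (mem_cent1.2 ?_))))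
    rw [← mul_inv_eq_iff_eq_mul]
    calc _ = g * (g * z * g⁻¹) * g⁻¹ := by group
      _ = b * (b * z * b⁻¹) * b⁻¹ := by rw [act _ t1, act z z1]
      _ = b * b * z * (b * b)⁻¹ := by group
      _ = z := by rw [mem_cent1.1 k3, mul_inv_cancel_right]
  have i : (𝐂₁ (g * z * g⁻¹)).relIndex S ≤ 2 := by
    have e := Fgs2.card_conj_subgroup S (g * z * g⁻¹)
    have c1 := Set.ncard_sdiff_singleton_add_one (show z ∈ Fc S z from ⟨hz.1, .refl _⟩)
    rw [h3 z zB] at c1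
    have c2 : {y | ∃ k ∈ S, k * (g * z * g⁻¹) * k⁻¹ = y}.ncard ≤ (Fc S z \ {z}).ncard := by
      refine Set.ncard_le_ncard ?_
      rintro _ ⟨k, hk, rfl⟩
      refine ⟨⟨conj_mem_of_norm (le_norm_self _ hk) (lM t1), isConj_iff.2 ⟨k * g, by group⟩⟩, fun j => tz ?_⟩
      have j' : k * (g * z * g⁻¹) * k⁻¹ = z := j
      calc _ = k⁻¹ * (k * (g * z * g⁻¹) * k⁻¹) * k := by group
        _ = z := by rw [j', mem_cent1.1 (zS (inv_mem hk)), inv_mul_cancel_right]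
    rw [← e]
    exact c2.trans (by omega)
  have l2 : S ⊓ 𝐂₁ (g * z * g⁻¹) ≤ M := (le_inf inf_le_left kM).trans kM'
  by_cases e : M = S
  · exact .inl e
  have c1 := card_two_le p (lM.lt_of_ne e)
  have c2 := card_le l2
  have c3 := card_inf_mul_relIndex (𝐂₁ (g * z * g⁻¹)) S
  have c4 := Nat.mul_le_mul_left (♯(𝐂₁ (g * z * g⁻¹) ⊓ S : Subgroup G)) i
  rw [inf_comm] at c2
  have hy : Hyp M S := ⟨lM, by omega⟩
  obtain ⟨s, hs, sM⟩ := hy.exists_not_mem
  refine .inr ⟨hy, s, hs, _, t1, fun c hc k => ?_⟩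
  generalize g * z * g⁻¹ = t at *
  have st : s * t * s⁻¹ ≠ t := fun j => sM (l2 ⟨hs, mem_cent1.2 (mul_inv_eq_iff_eq_mul.1 j)⟩)
  have u1 := conj_mem_of_norm nM t1
  have ne2 : g * (g * t * g⁻¹) * g⁻¹ ≠ t := fun j => mv t t1 t2 (mul_inv_eq_iff_eq_mul.2
    (mem_cent1.1 (mem_of_sq o (mem_cent1.2 (by
      conv_rhs => rw [← j]
      group)))))
  have eF : Fc S t = {t, g * t * g⁻¹, g * (g * t * g⁻¹) * g⁻¹} := by
    refine (Set.eq_of_subset_of_ncard_le ?_ ?_).symm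
    · rintro _ (rfl | rfl | rfl)
      exacts [⟨lM t1, .refl _⟩, conj_mem_Fc (lM u1),
        Fc_eq (isConj_iff.2 ⟨g, rfl⟩) ▸ conj_mem_Fc (lM (conj_mem_of_norm nM u1))]
    · rw [h3 t (eB.ge ⟨t1, t2⟩), Set.ncard_eq_three.2
        ⟨_, _, _, (mv t t1 t2).symm, ne2.symm, (mv _ u1 (nc g t t2)).symm, rfl⟩]
  rcases eF.le (conj_mem_Fc (conj_mem_of_norm (le_norm_self _ hs) (lM t1))) with j | j | j
  · exact st j
  · exact mv' t t1 t2 c hc (j.symm.trans k)
  · have j' : s * t * s⁻¹ = g * (g * t * g⁻¹) * g⁻¹ := j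
    have o2 : Odd (orderOf (g * g)) := o.of_dvd_nat (by rw [← pow_two]; exact orderOf_pow_dvd 2)
    have := eq_one_of_odd (x := t) o2 (p.elt (h.le hc)) (mem_center_iff.1 hc _) (by
      rw [← k, j']; group)
    exact st (by rw [k, this, mul_one])

end CF.K2h
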