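import Cfsg.Agent.K2h.A

/-! The central quotient has dihedral Sylow 2-subgroups of order at most eight. -/

set_option autoImplicit false

namespace CF.K2h

open Subgroup Cfsg CF.BG CF.Sig CF.GW CF.Ab2
open scoped MatrixGroups

variable {G : Type*} [Group G] [Finite G] {S V L : Subgroup G} {a b g x y z : G}

theorem dc_of_eight (c : ♯S = 8) (e : ¬ Abel S) (f : FP a b) (ha : a ∈ S) (hb : b ∈ S) : DC S := by
  classical
  obtain ⟨σ, hσ, σ2⟩ : ∃ σ ∈ S, σ * σ ≠ 1 := by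
    by_contra! k
    exact e (ab_mk k).abel
  have l := zpowers_le.2 hσ
  have o : orderOf σ = 4 := by
    have d := BG.card_dvd l
    rw [c, Nat.card_zpowers] at d
    have d8 : orderOf σ ≠ 8 := fun k => e ((abel_zpowers σ).mono
      (eq_of_card_eq l (by rw [Nat.card_zpowers, k, c])).ge)
    have d2 : ¬ orderOf σ ∣ 2 := fun k => σ2 (by rw [← pow_two]; exact orderOf_dvd_iff_pow_eq_one.1 k)
    have := Nat.le_of_dvd (by norm_num) d
    generalize orderOf σ = m at *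
    interval_cases m <;> omega
  have hy : Hyp (zpowers σ) S := ⟨l, by rw [c, Nat.card_zpowers, o]⟩
  have s4 : σ ^ 4 = 1 := o ▸ pow_orderOf_eq_one σ
  have mem : ∀ {x}, x ∈ zpowers σ → x = 1 ∨ x = σ ∨ x = σ * σ ∨ x = σ⁻¹ := fun {x} hx => by
    rw [mem_zpowers_iff_mem_range_orderOf, o] at hx
    obtain ⟨i, hi, rfl⟩ := Finset.mem_image.1 hx
    have := Finset.mem_range.1 hi
    interval_cases i
    exacts [.inl (pow_zero σ), .inr (.inl (pow_one σ)), .inr (.inr (.inl (pow_two σ))),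
      .inr (.inr (.inr (eq_inv_of_mul_eq_one_left (by rw [← pow_succ, s4]))))]
  have inv : ∀ x ∈ S, x ∉ zpowers σ → x * σ * x⁻¹ = σ⁻¹ := fun x hx k => by
    have q : orderOf (x * σ * x⁻¹) = 4 := o ▸ (SemiconjBy.orderOf_eq x (by simp [SemiconjBy])).symm
    rcases mem (conj_mem_of_norm (hy.norm hx) (mem_zpowers σ)) with j | j | j | j
    · rw [j, orderOf_one] at q; omega
    · refine (e ?_).elim
      rw [← hy.sup_zp hx k]
      exact (abel_zpowers σ).sup (abel_zpowers x) (zpowers_le.2 (by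
        rw [cent_zpowers]; exact mem_cent1.2 (mul_inv_eq_iff_eq_mul.1 j).symm))
    · have := orderOf_dvd_of_pow_eq_one (show (σ * σ) ^ 2 = 1 by
        rw [← s4]; simp [pow_succ, mul_assoc])
      rw [← j, q] at this; omega
    · exact j
  have sq : ∀ y, Iv y → y ∈ zpowers σ → y = σ * σ := fun y j k => by
    rcases mem k with q | q | q | q
    exacts [(j.ne_one q).elim, (σ2 (q ▸ j.sq)).elim, q,
      (σ2 (by rw [← inv_eq_one, mul_inv_rev, ← q, j.sq])).elim]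
  obtain ⟨y, m, j, nm⟩ : ∃ y ∈ S, Iv y ∧ y ∉ zpowers σ := by
    by_contra! k
    exact f.ne ((sq a f.l (k a ha f.l)).trans (sq b f.r (k b hb f.r)).symm)
  refine ⟨σ, hσ, fun x hx k => ⟨?_, inv x hx k⟩, fun x hx y hy' => hy.mul_mem hx hy'⟩
  obtain ⟨m, q⟩ := hy.mul_mem m hx nm k
  have : x = y * σ ^ m := by rw [show σ ^ m = y * x from q, ← mul_assoc, j.sq, one_mul]
  rw [this]
  calc _ = (y * σ * y⁻¹) ^ m * (y * y) * σ ^ m := by rw [conj_zpow]; group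
    _ = 1 := by rw [inv y ‹_› nm, j.sq]; group

theorem exists_iv_out (d : DC S) (h : Hyp V S) (c : ¬ Cyc V) : ∃ s ∈ S, s ∉ V ∧ Iv s := by
  obtain ⟨σ, hσ, h1, -⟩ := d
  obtain ⟨s, hs, sV⟩ := h.exists_not_mem
  by_cases e : s ∈ zpowers σ
  · obtain ⟨y, hy, k⟩ := SetLike.not_le_iff_exists.1 fun l : V ≤ zpowers σ => c ((cyc_zpowers σ).mono l)
    have m := mul_mem (h.le hy) hs
    have n : y * s ∉ V := fun j => sV ((mul_mem_cancel_left hy).1 j)
    exact ⟨_, m, n, .mk' (fun j => n (j ▸ one_mem _))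
      (h1 _ m fun j => k ((mul_mem_cancel_right e).1 j)).1⟩
  · exact ⟨s, hs, sV, .mk' (fun j => sV (j ▸ one_mem _)) (h1 s hs e).1⟩

theorem no_six (f : FP a z) (n : V4 a z ⊴ ⊤) (c : ⊤ ⊓ 𝐂 (V4 a z) ≤ V4 a z) (x : G) :
    orderOf x ≠ 6 := fun e => by
  have o3 : orderOf (x ^ 2) = 3 := by rw [orderOf_pow' _ two_ne_zero, e]; rfl
  have o2 : Iv (x ^ 3) := by rw [Iv, orderOf_pow' _ three_ne_zero, e]; rfl
  have o : Odd (orderOf (x ^ 2)) := by rw [o3]; decide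
  have yc : x ^ 2 ∉ 𝐂 (V4 a z) := fun k => by
    have := eq_one_of_sq_of_odd (f.sq (c ⟨mem_top _, k⟩)) o
    rw [this, orderOf_one] at o3; omega
  have cm : x ^ 2 ∈ 𝐂₁ (x ^ 3) := mem_cent1.2 (by group)
  obtain ⟨b, hb, b1⟩ := exists_mem_ne_one (PiGrp.inf_cent_ne_bot (piGrp_of_card_prime p2 o2.card) f.pi
    (le_top.trans n.norm) (ne_bot_of_mem (left_mem_V4 a z) f.l.ne_one))
  rw [cent_zpowers] at hb
  have m := n.conj_mem (mem_top (x ^ 2)) hb.1
  have ne : b ≠ x ^ 2 * b * (x ^ 2)⁻¹ := fun k => yc (f.cent_of_odd (n.norm (mem_top _)) o hb.1 b1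
    (mem_cent1.2 (mul_inv_eq_iff_eq_mul.1 k.symm)))
  have i := f.iv_of_mem hb.1 b1
  have f' : FP b (x ^ 2 * b * (x ^ 2)⁻¹) := ⟨i, i.conj _, f.abel.mul_comm hb.1 m, ne⟩
  have e' : V4 b (x ^ 2 * b * (x ^ 2)⁻¹) = V4 a z :=
    eq_of_card_eq (V4_le.2 ⟨hb.1, m⟩) (f'.card.trans f.card.symm)
  have t : x ^ 3 ∈ V4 a z := c ⟨mem_top _, zp_le_cent.2 (e' ▸ V4_le.2 ⟨hb.2,
    mul_mem (mul_mem cm hb.2) (inv_mem cm)⟩) (mem_zpowers _)⟩
  exact yc (f.cent_of_odd (n.norm (mem_top _)) o t o2.ne_one cm)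

theorem quo (h0 : 𝐎 {2}ᶜ (⊤ : Subgroup G) = ⊥) (s : Syl 2 S ⊤) (c : ♯V = 4) (n : g ∈ 𝐍 V)
    (o : Odd (orderOf g)) (sc : ∀ x ∈ V, ∀ y ∈ S, IsConj x y → y ∈ V)
    (mv : ∀ x ∈ V, x ≠ 1 → g * x * g⁻¹ ≠ x) (k : V = S ∨ Hyp V S ∧ ¬ Abel S) :
    Nonempty (G ≃* alternatingGroup (Fin 4)) ∨ Nonempty (G ≃* Equiv.Perm (Fin 4)) ∨
    ∃ L : Subgroup G, L.Normal ∧ IsSimpleGroup L ∧ ¬ IsMulCommutative L ∧ 𝐂 L = ⊥ ∧
      ∃ (F : Type) (_ : Field F) (_ : Fintype F), 3 < Fintype.card F ∧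
        (Fintype.card F % 8 = 3 ∨ Fintype.card F % 8 = 5) ∧ Nonempty (L ≃* PSL(2, F)) := by
  have p : P2 V := piGrp_of_card (k := 2) p2 c
  obtain ⟨a, ha, a1⟩ := exists_mem_ne_one (H := V) fun e => by rw [e, card_bot] at c; omega
  have gV : g ∉ 𝐂 V := fun e => mv a ha a1 (mul_inv_eq_iff_eq_mul.2 (mem_cent.1 e a ha).symm)
  obtain ⟨a, b, f, rfl⟩ : ∃ a b, FP a b ∧ V = V4 a b := by
    by_cases e : Cyc V
    · exact (dg_of_syl (.refl p) (dc_of_cyc e)).fp_of_odd le_rfl p n o gV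
    · obtain ⟨b, f, e⟩ := Ab2.exists_fp (ab_of_four c e) c ha a1
      exact ⟨a, b, f, e.symm⟩
  have d : DC S := k.elim (fun e => e ▸ dc_V4 f) fun ⟨h, e⟩ =>
    dc_of_eight (by rw [h.card, c]) e f (h.le (left_mem_V4 a b)) (h.le (right_mem_V4 a b))
  have np : ¬ P2 (⊤ : Subgroup G) := fun q =>
    gV (((q.elt (mem_top g)).eq_one (odd_iff_piElt.1 o)).symm ▸ one_mem _)
  rcases (dg_of_syl s d).cases h0 with q | ⟨u, v, f', n', c'⟩ | ⟨L, n', q, c', -, sL, w⟩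
  · exact (np q).elim
  · obtain ⟨L, -, -, -, -, i, l⟩ := four_L f' n' c' np
    have e := l.card (by decide)
    have e2 := L.card_mul_index
    rw [relIndex_top_right] at i
    rcases (Nat.dvd_prime p2).1 i with j | j <;> rw [j] at e2
    · exact .inl (Classical.equiv_A4_of_card_twelve' (by omega) (no_six f' n' c'))
    · exact .inr (.inl (Classical.equiv_S4_of_card_twentyfour (by omega) (no_six f' n' c')))
  have sl := s.inf_normal n'
  have sl' : Syl 2 ((S ⊓ L).subgroupOf L) ⊤ := subgroupOf_self L ▸ hall_subgroupOf sl le_rfl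
  have cl : ♯((S ⊓ L).subgroupOf L) = ♯(S ⊓ L : Subgroup G) := card_subgroupOf' inf_le_right
  have le4 : ♯(S ⊓ L : Subgroup G) ≤ 4 := by
    rcases k with e | ⟨h, -⟩
    · exact c ▸ e ▸ card_le inf_le_left
    have hc := h.card
    refine (by omega : 2 * ♯(S ⊓ L : Subgroup G) ≤ ♯S → _) (card_two_le s.pi
      (inf_lt_left.2 fun l => ?_))
    obtain ⟨t, ht, tV, i⟩ := exists_iv_out d h f.not_cyc
    obtain ⟨y, hy, j⟩ := exists_conj_mem_of_relIndex (G := L) (no2_of_perfect (by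
      apply map_injective L.subtype_injective
      rw [commutator_def, map_commutator, map_top_subtype, q.perfect])) (sl'.isSylowIn p2)
      (M := (V4 a b).subgroupOf L) (t := ⟨t, l ht⟩)
      (by rw [relIndex_subgroupOf inf_le_right, inf_eq_left.2 l, h.relIndex]) (by rw [orderOf_mk]; exact i)
    exact tV (sc y hy t ht (L.subtype.map_isConj j).symm)
  rcases w with ⟨F, _, _, oF, q3, ⟨e⟩⟩ | ⟨⟨e⟩⟩
  · refine .inr (.inr ⟨L, normalIn_top.1 n', sL, fun j => q.not_abel (.of_comm j),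
      (top_inf_eq _).symm.trans c', F, _, _, q3, mod_eight oF e sl' (cl.trans (le_antisymm le4 ?_)), ⟨e⟩⟩)
    obtain ⟨v, hv, w, hw, ρ, -, j⟩ := JR.IsL.a4 (X := L) ⟨F, _, _, rfl, ⟨e⟩⟩ oF
    exact j.fp.card ▸ sl.card_le (V4_le.2 ⟨hv, hw⟩) j.fp.pi
  · have := dvd_card_syl sl' (k := 3) (by
      rw [Nat.card_congr e.toEquiv, nat_card_alternatingGroup, Nat.card_eq_fintype_card]; decide)
    have := Nat.le_of_dvd Nat.card_pos this
    omega

theorem O_quot_center (h0 : 𝐎 {2}ᶜ (⊤ : Subgroup G) = ⊥) {Y : Type*} [Group Y] [Finite Y]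
    {f : G →* Y} (hf : Function.Surjective f) (hk : f.ker = center G) :
    𝐎 {2}ᶜ (⊤ : Subgroup Y) = ⊥ := by
  have w := normalIn_top.1 (O_normal {2}ᶜ (⊤ : Subgroup Y))
  have p := O_pi {2}ᶜ (⊤ : Subgroup Y)
  generalize 𝐎 {2}ᶜ (⊤ : Subgroup Y) = O at w p
  have e := map_comap_eq_self_of_surjective hf O
  have k : Hall {2} (center G) (O.comap f) := ⟨hk ▸ ker_le_comap f O, pi_center h0, by
    rw [← hk, relIndex_ker, e]; exact p⟩
  have d := (k.dprod_of_cent fun x _ y hy => (mem_center_iff.1 hy x).symm).sup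
  rw [BG.eq_bot_mono h0 (O_le_O_of_normal (normalIn_top.2 inferInstance) _), sup_bot_eq] at d
  rw [← e, ← d, Subgroup.map_eq_bot_iff, hk]

theorem main (P : Sylow 2 G) (hO : pPrimeCore 2 G = ⊥)
    (hk : 2 * Fgs1.kp 2 G = Nat.card (P : Subgroup G)) :
    Nonempty (G ⧸ center G ≃* alternatingGroup (Fin 4)) ∨
    Nonempty (G ⧸ center G ≃* Equiv.Perm (Fin 4)) ∨
    ∃ L : Subgroup (G ⧸ center G), L.Normal ∧ IsSimpleGroup L ∧ ¬ IsMulCommutative L ∧ 𝐂 L = ⊥ ∧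
      ∃ (F : Type) (_ : Field F) (_ : Fintype F), 3 < Fintype.card F ∧
        (Fintype.card F % 8 = 3 ∨ Fintype.card F % 8 = 5) ∧ Nonempty (L ≃* PSL(2, F)) := by
  have h := K2h.hk P hO hk
  have h0 := (pPrimeCore_eq p2).symm.trans hO
  obtain ⟨Q, l, q, g, hq, q2, ⟨j, og⟩, n, c⟩ := Transfer.exists_qElt_not_centralize (fun ⟨R, N, nN, k⟩ => by
    have e : N = ⊥ := BG.eq_bot_mono h0 (le_O (normalIn_top.2 nN) ((piNat_compl_single p2).2
      (k.index_eq_card ▸ R.not_dvd_index)))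
    have e' := k.sup_eq_top
    rw [e, bot_sup_eq] at e'
    exact h.ne_top (h.syl.eq_of_pi (e' ▸ (syl_sylow_top R).pi))) P
  have o : Odd (orderOf g) := og ▸ (hq.odd_of_ne_two q2).pow
  obtain ⟨M, zM, lM, cM, nM, sc, mv, k⟩ := h.core l o n c
  have hf := QuotientGroup.mk'_surjective (center G)
  replace hk := QuotientGroup.ker_mk' (center G)
  have h1 := O_quot_center h0 hf hk
  generalize QuotientGroup.mk' (center G) = f at hf hk
  generalize (P : Subgroup G) = S at *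
  have cd : ∀ H, center G ≤ H → ♯(center G) * ♯(H.map f) = ♯H := fun H l => by
    rw [← relIndex_ker, hk, card_mul_relIndex l]
  have pos : 0 < ♯(center G) := Nat.card_pos
  have eq : ∀ x y, f x = f y → ∃ c ∈ center G, y = x * c := fun x y e =>
    ⟨x⁻¹ * y, hk.le (by rw [MonoidHom.mem_ker, map_mul, map_inv, e, inv_mul_cancel]), by group⟩
  have c4 : ♯(M.map f) = 4 := Nat.eq_of_mul_eq_mul_left pos (by rw [cd M zM, cM, mul_comm])
  refine quo (S := S.map f) (g := f g) h1 (map_top_of_surjective f hf ▸ h.syl.map f) c4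
    (map_norm (zpowers_le.2 nM) f (mem_map_of_mem f (mem_zpowers g)))
    (o.of_dvd_nat (orderOf_map_dvd f g)) ?_ ?_ (k.imp (congrArg _) fun ⟨k1, s, hs, t, ht, k2⟩ => ⟨⟨map_mono lM,
      Nat.eq_of_mul_eq_mul_left pos (by rw [cd S h.le, c4, k1.card, cM]; ring)⟩, fun e => ?_⟩)
  · rintro _ ⟨x, hx, rfl⟩ _ ⟨y, hy, rfl⟩ e
    obtain ⟨u, e⟩ := isConj_iff.1 e
    obtain ⟨u, rfl⟩ := hf u
    rw [← map_inv, ← map_mul, ← map_mul] at e
    obtain ⟨c, hc, e⟩ := eq _ _ e.symm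
    exact mem_map_of_mem f ((mul_mem_cancel_right (zM hc)).1
      (sc x hx _ (mul_mem hy (h.le hc)) (isConj_iff.2 ⟨u, e⟩)))
  · rintro _ ⟨x, hx, rfl⟩ x1 e
    rw [← map_inv, ← map_mul, ← map_mul] at e
    obtain ⟨c, hc, e⟩ := eq _ _ e.symm
    exact mv x hx (fun j => x1 (hk.ge j)) c hc e
  · obtain ⟨c, hc, j⟩ := eq t (s * t * s⁻¹) (by
      rw [map_mul, map_mul, map_inv, e.mul_comm (mem_map_of_mem f hs) (mem_map_of_mem f (lM ht)),
        mul_inv_cancel_right])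
    exact k2 c hc j

end CF.K2h
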